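import Mathlib
import Cfsg.Agent.Lib.TB.Basic
import Cfsg.Agent.Lib.Coprime.Generation

/-! The transitivity theorem for groups with `p`-constrained `p`-local subgroups. -/

set_option autoImplicit false

namespace CfsgLib.TB

open Cfsg Subgroup CfsgLib.BG
open scoped commutatorElement

variable {G : Type*} [Group G] [Finite G] {p q : ℕ}

theorem exists_maxInv {H A X : Subgroup G} {π : Set ℕ} (hX : X ∈ invSubgroups H A π) :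
    ∃ R ∈ maxInvSubgroups H A π, X ≤ R := by
  obtain ⟨R, h1, h2⟩ := Finite.exists_le_maximal (p := fun Y => Y ∈ invSubgroups H A π) hX
  exact ⟨R, ⟨h2.1, fun Y hY h => le_antisymm (h2.2 hY h) h⟩, h1⟩

omit [Finite G] in
theorem cj_mem_maxInv {H A R : Subgroup G} {π : Set ℕ} (hR : R ∈ maxInvSubgroups H A π) {k : G} (hkH : k ∈ 𝒩(H))
    (hk : k ∈ 𝒩(A)) : cj k R ∈ maxInvSubgroups H A π := by
  have key : ∀ {k : G} {Y : Subgroup G}, k ∈ 𝒩(H) → k ∈ 𝒩(A) → Y ∈ invSubgroups H A π →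
      cj k Y ∈ invSubgroups H A π := fun {k Y} h1 h2 hY =>
    ⟨cj_le_of_mem_norm h1 hY.1, pigroup_cj.mpr hY.2.1, by
      rw [← cj_norm, ← cj_eq_of_mem_norm h2]; exact cj_mono _ hY.2.2⟩
  refine ⟨key hkH hk hR.1, fun Y hY h => ?_⟩
  rw [← hR.2 _ (key (inv_mem hkH) (inv_mem hk) hY) (cj_le_iff_le_cj_inv.mp h), cj_cj_inv]

/-- If the abelian `p`-subgroup `E` contains all `p`-elements of its centralizer, then `C(E) = E × O_{p'}(C(E))`. -/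
theorem le_oppOf_cent (hp : p.Prime) {E Y : Subgroup G} (hE : IsPiSubgroup {p} E) (hc : IsMulCommutative E)
    (hΩ : ∀ x ∈ 𝒞(E), ∀ k : ℕ, x ^ p ^ k = 1 → x ∈ E) (hY : Y ≤ 𝒞(E)) (hY' : IsPiSubgroup {p}ᶜ Y) :
    Y ≤ oppOf p 𝒞(E) := by
  have hS : IsSylowOf p E 𝒞(E) := max_pgroup_Sylow hp (abelian_cents hc) hE fun Q h1 h2 _ x hx => by
    obtain ⟨k, hk⟩ := Core.isPGroup_subgroup_iff.mp (pgp_isPGroup h2) x hx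
    exact hΩ x (h1 hx) k hk
  exact (sub_Hall_pcore (S1.normal_p_complement_of_sdprod hp (pcore_pgroup _ _) hE
    (Burnside_normal_complement hp hS inf_le_left)).1 hY).mpr hY'

/-- Abstract transitivity theorem: `E` is an abelian `p`-group of rank at least three, and for every `b ∈ E^#` the
`E`-invariant `q`-subgroups of `C(b)` lie in an `E`-invariant `p'`-subgroup of `C(b)`. -/
theorem transitive_of_local (hp : p.Prime) (hq : q.Prime) (hqp : q ≠ p) {E E₀ K : Subgroup G}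
    (hE : IsPiSubgroup {p} E) (hc : IsMulCommutative E) (h0 : E₀ ≤ E) (hexp : ∀ a ∈ E₀, a ^ p = 1)
    (h3 : p ^ 2 < Nat.card E₀) (hKE : K ≤ 𝒞(E)) (hK : ∀ Y : Subgroup G, Y ≤ 𝒞(E) → IsPiSubgroup {p}ᶜ Y → Y ≤ K)
    (hloc : ∀ b ∈ E₀, b ≠ 1 → ∃ H : Subgroup G, IsPiSubgroup {p}ᶜ H ∧ E ≤ 𝒩(H) ∧
      ∀ Y : Subgroup G, Y ≤ 𝒞[b] → IsPiSubgroup {q} Y → E ≤ 𝒩(Y) → Y ≤ H)
    {Q₁ Q₂ : Subgroup G} (h₁ : Q₁ ∈ maxInvSubgroups ⊤ E {q}) (h₂ : Q₂ ∈ maxInvSubgroups ⊤ E {q}) :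
    ∃ k ∈ K, Q₂ = cj k Q₁ := by
  induction hD : Q₁ ⊓ Q₂ using WellFoundedGT.induction generalizing Q₁ Q₂ with | ind D ih => ?_
  by_cases h12 : Q₁ ≤ Q₂
  · exact ⟨1, K.one_mem, by rw [cj_one, h₁.2 Q₂ h₂.1 h12]⟩
  by_cases h21 : Q₂ ≤ Q₁
  · exact ⟨1, K.one_mem, by rw [cj_one, h₂.2 Q₁ h₁.1 h21]⟩
  have hc0 := abelianS h0 hc
  have hD₁ : D ≤ Q₁ := hD ▸ inf_le_left
  have hD₂ : D ≤ Q₂ := hD ▸ inf_le_right
  have hED : E ≤ 𝒩(D) := hD ▸ normsI h₁.1.2.2 h₂.1.2.2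
  have hlt : ∀ {Q : Subgroup G}, Q ∈ maxInvSubgroups ⊤ E {q} → D < Q → ¬ Q ⊓ 𝒩(D) ≤ D := fun h h' =>
    (nilpotent_proper_norm (pgp_nil h.1.2.1) h').not_ge
  have hN : ∀ {Q : Subgroup G}, Q ∈ maxInvSubgroups ⊤ E {q} → E ≤ 𝒩(Q ⊓ 𝒩(D)) := fun h =>
    normsI h.1.2.2 (norms_norm hED)
  have hco : ∀ {Q B : Subgroup G}, Q ∈ maxInvSubgroups ⊤ E {q} → B ≤ E →
      (Nat.card B).Coprime (Nat.card ↥(Q ⊓ 𝒩(D))) := fun h h' =>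
    pgp_coprime_of_ne (pigroupS h' hE) (pigroupS inf_le_left h.1.2.1) hqp.symm
  obtain ⟨B, hB, hBi, hB₁⟩ : ∃ B : Subgroup G, B ≤ E₀ ∧ B.relIndex E₀ = p ∧ ¬ Q₁ ⊓ 𝒩(D) ⊓ 𝒞(B) ≤ D := by
    by_contra h
    push Not at h
    refine hlt h₁ (lt_of_le_of_ne hD₁ fun e => h12 (e ▸ hD₂))
      (Coprime.le_of_forall_hyperplane hp hexp ?_ (h0.trans (hN h₁)) (hco h₁ h0) h)
    rintro rfl
    rw [card_bot] at h3
    exact h3.not_ge (Nat.one_le_pow _ _ hp.pos)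
  have hBc := abelianS hB hc0
  have hBnc : ¬ IsCyclic B := by
    intro h
    have h1 := Nat.le_of_dvd hp.pos (h.exponent_eq_card ▸ Monoid.exponent_dvd_of_forall_pow_eq_one
      fun a : B => Subtype.ext (hexp a (hB a.2)))
    rw [← Lagrange hB, hBi] at h3
    nlinarith [hp.pos]
  obtain ⟨b, hb, hb1, hb₂⟩ : ∃ b ∈ B, b ≠ 1 ∧ ¬ Q₂ ⊓ 𝒩(D) ⊓ 𝒞[b] ≤ D := by
    by_contra h
    push Not at h
    exact hlt h₂ (lt_of_le_of_ne hD₂ fun e => h21 (e ▸ hD₁))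
      (Coprime.le_of_forall_centralizer_le hBnc ((hB.trans h0).trans (hN h₂)) (hco h₂ (hB.trans h0)) h)
  have hb₁ : ¬ Q₁ ⊓ 𝒩(D) ⊓ 𝒞[b] ≤ D := fun h => hB₁ ((inf_le_inf_left _ (cent_le_cent1 hb)).trans h)
  obtain ⟨H, hH, hEH, hHY⟩ := hloc b (hB hb) hb1
  have hEb : E ≤ 𝒩(𝒞[b]) := norms_cent1 ((abelian_cents hc).trans (cent_le_cent1 (h0 (hB hb))))
  have hDq : IsPiSubgroup {q} D := pigroupS hD₁ h₁.1.2.1
  have hL : IsPiSubgroup {p}ᶜ (D ⊔ H ⊓ 𝒩(D)) :=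
    pigroupY (Or.inr inf_le_right) (pgp_p'group hDq hqp) (pigroupS inf_le_left hH)
  have hEL : E ≤ 𝒩(D ⊔ H ⊓ 𝒩(D)) := normsY hED (normsI hEH (norms_norm hED))
  have hcoL := pigroup_coprime' hL hE
  have key : ∀ {Q : Subgroup G}, Q ∈ maxInvSubgroups ⊤ E {q} → D ≤ Q → ¬ Q ⊓ 𝒩(D) ⊓ 𝒞[b] ≤ D →
      ∃ R, IsSylowOf q R (D ⊔ H ⊓ 𝒩(D)) ∧ E ≤ 𝒩(R) ∧ D < Q ⊓ R := by
    intro Q h hDQ hn
    have hXQ : D ⊔ Q ⊓ 𝒩(D) ⊓ 𝒞[b] ≤ Q := sup_le hDQ (inf_le_left.trans inf_le_left)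
    obtain ⟨R, h1, h2, h3⟩ := coprime_Sylow_subset hq hEL hcoL (Or.inl (pgp_sol hE))
      (X := D ⊔ Q ⊓ 𝒩(D) ⊓ 𝒞[b]) (sup_le_sup_left (le_inf (hHY _ inf_le_right
        (pigroupS (inf_le_left.trans inf_le_left) h.1.2.1) (normsI (hN h) hEb)) (inf_le_left.trans inf_le_right)) _)
      (pigroupS hXQ h.1.2.1) (normsY hED (normsI (hN h) hEb))
    exact ⟨R, h1, h2, (left_lt_sup.mpr hn).trans_le (le_inf hXQ h3)⟩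
  obtain ⟨R₁, hR₁, hER₁, hlt₁⟩ := key h₁ hD₁ hb₁
  obtain ⟨R₂, hR₂, hER₂, hlt₂⟩ := key h₂ hD₂ hb₂
  obtain ⟨x, hx, rfl⟩ := coprime_Sylow_trans hq hEL hcoL (Or.inl (pgp_sol hE)) hR₁ hER₁ hR₂ hER₂
  have hxK : x ∈ K := hK _ inf_le_right (pigroupS inf_le_left hL) hx
  obtain ⟨R, hR, hRR⟩ := exists_maxInv (H := ⊤) (A := E) (π := {q}) ⟨le_top, pHall_pgroup hR₁, hER₁⟩
  obtain ⟨k₁, hk₁, rfl⟩ := ih _ (hlt₁.trans_le (inf_le_inf_left _ hRR)) h₁ hR rfl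
  obtain ⟨k₂, hk₂, rfl⟩ := ih _ (hlt₂.trans_le ((inf_le_inf_left _ (cj_mono x hRR)).trans (inf_comm _ _).le))
    (cj_mem_maxInv hR (by rw [norm_top]; trivial) (cent_sub _ hx.2)) h₂ rfl
  exact ⟨k₂ * x * k₁, mul_mem (mul_mem hk₂ hxK) hk₁, by rw [cj_mul, cj_mul]⟩

/-- The transitivity theorem. -/
theorem transitivity (hp : p.Prime) (hq : q.Prime) (hqp : q ≠ p)
    (h2 : p = 2 → ∀ S : Subgroup G, IsPGroup p S → ⁅⁅S, S⁆, S⁆ = ⊥) {E E₀ : Subgroup G}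
    (hE : IsPGroup p E) (hc : IsMulCommutative E) (h0 : E₀ ≤ E) (hexp : ∀ a ∈ E₀, a ^ p = 1)
    (h3 : p ^ 2 < Nat.card E₀) (hΩ : ∀ x ∈ 𝒞(E), ∀ k : ℕ, x ^ p ^ k = 1 → x ∈ E)
    (hloc : ∀ b ∈ E₀, b ≠ 1 → ∃ M : Subgroup G, 𝒞[b] ≤ M ∧ IsPConstrained p M)
    {Q₁ Q₂ : Subgroup G} (h₁ : Q₁ ∈ maxInvSubgroups ⊤ E {q}) (h₂ : Q₂ ∈ maxInvSubgroups ⊤ E {q}) :
    ∃ k ∈ oppOf p 𝒞(E), Q₂ = cj k Q₁ := by
  have hE' := (pigroup_singleton hp).mpr hE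
  refine transitive_of_local hp hq hqp hE' hc h0 hexp h3 (pcore_sub _ _)
    (fun Y h h' => le_oppOf_cent hp hE' hc hΩ h h') (fun b hb hb1 => ?_) h₁ h₂
  obtain ⟨M, hM, hM'⟩ := hloc b hb hb1
  have hEM : E ≤ M := ((abelian_cents hc).trans (cent_le_cent1 (h0 hb))).trans hM
  exact ⟨oppOf p M, pcore_pgroup _ _, hEM.trans (pcore_norm _ _), fun Y h1 h2' h3 =>
    le_oppOf hp h2 hM' hEM (h1.trans hM) hE hΩ (pgp_p'group h2' hqp) h3⟩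

end CfsgLib.TB
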